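import Mathlib
import Cfsg.Prelude.Def_Classical
import Cfsg.Agent.Lib.QdFree.TI

/-!
# `SL₂(K)` and `SU₃(q)` have TI Sylow subgroups for the defining characteristic
-/

set_option autoImplicit false

namespace CfsgLib.QdFree

open Matrix

/-- A `p`-group acting linearly on a finite vector space in characteristic `p` fixes a nonzero vector of every
nonzero invariant subspace. -/
theorem exists_fixed_vector {p : ℕ} [Fact p.Prime] {K : Type*} [Field K] [Finite K] [CharP K p] {n : Type*} [Fintype n]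
    [DecidableEq n] {A : Type*} [Group A] (hA : IsPGroup p A) (ρ : A →* Matrix n n K) (W : Submodule K (n → K))
    (hW : ∀ a, ∀ v ∈ W, ρ a *ᵥ v ∈ W) (w : n → K) (hw : w ∈ W) (hw0 : w ≠ 0) :
    ∃ v ∈ W, v ≠ 0 ∧ ∀ a, ρ a *ᵥ v = v := by
  let inst : MulAction A W :=
    { smul := fun a v => ⟨ρ a *ᵥ v, hW a v v.2⟩
      one_smul := fun v => Subtype.ext (by change ρ 1 *ᵥ (v : n → K) = v; simp)
      mul_smul := fun a b v => Subtype.ext (by
        change ρ (a * b) *ᵥ (v : n → K) = ρ a *ᵥ (ρ b *ᵥ (v : n → K))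
        rw [map_mul, Matrix.mulVec_mulVec]) }
  have hdvd : p ∣ Nat.card W := by
    have h1 : addOrderOf (⟨w, hw⟩ : W) = p := by
      refine addOrderOf_eq_prime ?_ (fun h => hw0 (congrArg Subtype.val h))
      apply Subtype.ext
      change p • w = 0
      rw [← Nat.cast_smul_eq_nsmul K, CharP.cast_eq_zero, zero_smul]
    rw [← h1]
    exact addOrderOf_dvd_natCard _
  obtain ⟨v, hv, hv0⟩ := hA.exists_fixed_point_of_prime_dvd_card_of_fixed_point W hdvd (a := 0)
    (fun a => Subtype.ext (by change ρ a *ᵥ (0 : n → K) = 0; simp))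
  exact ⟨v, v.2, fun h => hv0 (Subtype.ext h.symm), fun a => congrArg Subtype.val (hv a)⟩

theorem isPGroup_of_forall_prime {p : ℕ} [Fact p.Prime] {G : Type*} [Group G] [Finite G]
    (h : ∀ (r : ℕ) (g : G), r.Prime → orderOf g = r → r = p) : IsPGroup p G := by
  refine IsPGroup.of_card (n := (Nat.card G).primeFactorsList.length) ?_
  refine Nat.eq_prime_pow_of_unique_prime_dvd Nat.card_pos.ne' ?_
  intro r hr hdvd
  have : Fact r.Prime := ⟨hr⟩
  obtain ⟨g, hg⟩ := exists_prime_orderOf_dvd_card' r hdvd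
  exact h r g hr hg

/-- Averaging: an element of order prime to the characteristic that preserves a linear functional has a fixed
vector with any prescribed value of the functional. -/
theorem exists_fixed_of_coprime {p : ℕ} {K : Type*} [Field K] [CharP K p] {n : Type*} [Fintype n]
    [DecidableEq n] (g : Matrix n n K) (r : ℕ) (hr : ¬ p ∣ r) (hg : g ^ r = 1) (f : (n → K) →ₗ[K] K)
    (hf : ∀ v, f (g *ᵥ v) = f v) (z : n → K) : ∃ v, g *ᵥ v = v ∧ f v = f z := by
  have hr0 : (r : K) ≠ 0 := fun h => hr ((CharP.cast_eq_zero_iff K p r).1 h)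
  refine ⟨(r : K)⁻¹ • ∑ i ∈ Finset.range r, (g ^ i) *ᵥ z, ?_, ?_⟩
  · rw [Matrix.mulVec_smul, Matrix.mulVec_sum]
    congr 1
    have h1 := Finset.sum_range_succ (fun i => (g ^ i) *ᵥ z) r
    have h2 := Finset.sum_range_succ' (fun i => (g ^ i) *ᵥ z) r
    simp only [hg, pow_zero] at h1 h2
    simp only [Matrix.mulVec_mulVec, ← pow_succ']
    exact add_right_cancel (h2.symm.trans h1)
  · have h1 : ∀ i : ℕ, f ((g ^ i) *ᵥ z) = f z := by
      intro i
      induction i with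
      | zero => simp
      | succ i ih => rw [pow_succ', ← Matrix.mulVec_mulVec, hf, ih]
    rw [map_smul, map_sum]
    simp only [h1, Finset.sum_const, Finset.card_range, nsmul_eq_mul, smul_eq_mul]
    field_simp

theorem sl2_eq_one_of_fixes {K : Type*} [Field K] (x : Matrix (Fin 2) (Fin 2) K) (u v : Fin 2 → K)
    (hu : x *ᵥ u = u) (hv : x *ᵥ v = v) (h : u 0 * v 1 - u 1 * v 0 ≠ 0) : x = 1 := by
  have a0 := congrFun hu 0
  have a1 := congrFun hu 1
  have b0 := congrFun hv 0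
  have b1 := congrFun hv 1
  simp only [Matrix.mulVec, dotProduct, Fin.sum_univ_two] at a0 a1 b0 b1
  ext i j
  fin_cases i <;> fin_cases j <;> apply mul_left_cancel₀ h <;> simp
  · linear_combination v 1 * a0 - u 1 * b0
  · exact (mul_eq_zero.1 (show (u 0 * v 1 - u 1 * v 0) * x 0 1 = 0 by linear_combination u 0 * b0 - v 0 * a0))
  · exact (mul_eq_zero.1 (show (u 0 * v 1 - u 1 * v 0) * x 1 0 = 0 by linear_combination v 1 * a1 - u 1 * b1))
  · linear_combination u 0 * b1 - v 0 * a1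

theorem isTIp_SL2 {p : ℕ} [Fact p.Prime] {K : Type*} [Field K] [Finite K] [CharP K p] :
    IsTIp p (SpecialLinearGroup (Fin 2) K) := by
  intro A B hA hB hAB
  obtain ⟨⟨x, hxA, hxB⟩, hx⟩ := (Subgroup.ne_bot_iff_exists_ne_one).1 hAB
  have hx1 : x.1 ≠ 1 := fun h => hx (Subtype.ext (Subtype.ext h))
  obtain ⟨u, -, hu0, hu⟩ := exists_fixed_vector hA ((Cfsg.slToMat 2 K).comp A.subtype) ⊤ (fun _ _ _ => trivial)
    ![1, 0] trivial (by simp)
  obtain ⟨v, -, hv0, hv⟩ := exists_fixed_vector hB ((Cfsg.slToMat 2 K).comp B.subtype) ⊤ (fun _ _ _ => trivial)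
    ![1, 0] trivial (by simp)
  have hdet : u 0 * v 1 - u 1 * v 0 = 0 := by
    by_contra h
    exact hx1 (sl2_eq_one_of_fixes x.1 u v (hu ⟨x, hxA⟩) (hv ⟨x, hxB⟩) h)
  have huv : ∃ c : K, u = c • v := by
    by_cases h0 : v 0 = 0
    · have h1 : v 1 ≠ 0 := fun h1 => hv0 (by ext i; fin_cases i <;> simp [h0, h1])
      refine ⟨u 1 / v 1, ?_⟩
      ext i; fin_cases i
      · have : u 0 * v 1 = 0 := by rw [h0] at hdet; linear_combination hdet
        simp [h0, (mul_eq_zero.1 this).resolve_right h1]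
      · simp [h1]
    · refine ⟨u 0 / v 0, ?_⟩
      ext i; fin_cases i
      · simp [h0]
      · simp only [Fin.mk_one, Fin.isValue, Pi.smul_apply, smul_eq_mul]
        field_simp
        linear_combination -hdet
  obtain ⟨c, hc⟩ := huv
  let St : Subgroup (SpecialLinearGroup (Fin 2) K) := MulAction.stabilizer _ u
  have hSt : IsPGroup p St := by
    refine isPGroup_of_forall_prime fun r g hr hg => ?_
    by_contra hrp
    have hpr : ¬ p ∣ r := fun h => hrp ((Nat.prime_dvd_prime_iff_eq Fact.out hr).1 h).symm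
    have hgu : g.1.1 *ᵥ u = u := g.2
    have hgr : g.1.1 ^ r = 1 := by
      have : g ^ r = 1 := by rw [← hg]; exact pow_orderOf_eq_one g
      exact congrArg Subtype.val (congrArg Subtype.val this)
    let f : (Fin 2 → K) →ₗ[K] K :=
      { toFun := fun w => u 0 * w 1 - u 1 * w 0
        map_add' := fun a b => by simp; ring
        map_smul' := fun a b => by simp; ring }
    have hf : ∀ w, f (g.1.1 *ᵥ w) = f w := by
      intro w
      have a0 := congrFun hgu 0
      have a1 := congrFun hgu 1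
      have hd := g.1.2
      rw [Matrix.det_fin_two] at hd
      simp only [Matrix.mulVec, dotProduct, Fin.sum_univ_two] at a0 a1
      simp only [f, Matrix.mulVec, dotProduct, Fin.sum_univ_two, LinearMap.coe_mk, AddHom.coe_mk]
      linear_combination (u 0 * w 1 - u 1 * w 0) * hd - (g.1.1 1 0 * w 0 + g.1.1 1 1 * w 1) * a0 +
        (g.1.1 0 0 * w 0 + g.1.1 0 1 * w 1) * a1
    obtain ⟨z, hz⟩ : ∃ z, f z ≠ 0 := by
      by_cases h0 : u 0 = 0
      · have h1 : u 1 ≠ 0 := fun h1 => hu0 (by ext i; fin_cases i <;> simp [h0, h1])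
        exact ⟨![1, 0], by simpa [f] using h1⟩
      · exact ⟨![0, 1], by simpa [f] using h0⟩
    obtain ⟨w, hw, hw'⟩ := exists_fixed_of_coprime g.1.1 r hpr hgr f hf z
    have h1 := sl2_eq_one_of_fixes g.1.1 u w hgu hw (by rw [← hw'] at hz; exact hz)
    have h2 : g = 1 := Subtype.ext (Subtype.ext h1)
    rw [h2, orderOf_one] at hg
    exact hr.one_lt.ne hg
  refine hSt.to_le (sup_le (fun a ha => hu ⟨a, ha⟩) (fun b hb => ?_))
  change b.1 *ᵥ u = u
  have : b.1 *ᵥ v = v := hv ⟨b, hb⟩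
  rw [hc, Matrix.mulVec_smul, this]

/-- A matrix of determinant one preserving the form `x ⬝ σ y` on `K³` that fixes two vectors with nonsingular Gram
matrix is the identity. -/
theorem su3_eq_one_of_fixes {K : Type*} [Field K] (σ : K →+* K) (x : Matrix (Fin 3) (Fin 3) K) (hdet : x.det = 1)
    (hx : ∀ a b : Fin 3 → K, (x *ᵥ a) ⬝ᵥ (σ ∘ (x *ᵥ b)) = a ⬝ᵥ (σ ∘ b)) (u v : Fin 3 → K)
    (hu : x *ᵥ u = u) (hv : x *ᵥ v = v)
    (h : (u ⬝ᵥ (σ ∘ u)) * (v ⬝ᵥ (σ ∘ v)) - (u ⬝ᵥ (σ ∘ v)) * (v ⬝ᵥ (σ ∘ u)) ≠ 0) : x = 1 := by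
  set z : Fin 3 → K := crossProduct (σ ∘ u) (σ ∘ v) with hz
  let P : Matrix (Fin 3) (Fin 3) K := Matrix.of ![u, v, z]
  have hP : P.det = (u ⬝ᵥ (σ ∘ u)) * (v ⬝ᵥ (σ ∘ v)) - (u ⬝ᵥ (σ ∘ v)) * (v ⬝ᵥ (σ ∘ u)) := by
    simp [P, hz, Matrix.det_fin_three, cross_apply, dotProduct, Fin.sum_univ_three]
    ring
  have hzu : z ⬝ᵥ (σ ∘ u) = 0 := by rw [dotProduct_comm, hz, dot_self_cross]
  have hzv : z ⬝ᵥ (σ ∘ v) = 0 := by rw [dotProduct_comm, hz, dot_cross_self]
  have h1 : (x *ᵥ z) ⬝ᵥ (σ ∘ u) = 0 := by rw [← hzu, ← hx z u, hu]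
  have h2 : (x *ᵥ z) ⬝ᵥ (σ ∘ v) = 0 := by rw [← hzv, ← hx z v, hv]
  have hPx : P * xᵀ = Matrix.of ![u, v, x *ᵥ z] := by
    ext i j
    fin_cases i
    · have := congrFun hu j
      simpa [P, Matrix.mul_apply, Matrix.mulVec, dotProduct, mul_comm] using this
    · have := congrFun hv j
      simpa [P, Matrix.mul_apply, Matrix.mulVec, dotProduct, mul_comm] using this
    · simp [P, Matrix.mul_apply, Matrix.mulVec, dotProduct, mul_comm]
  have h3 : (Matrix.of ![u, v, x *ᵥ z]).det = P.det := by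
    rw [← hPx, Matrix.det_mul, Matrix.det_transpose, hdet, mul_one]
  let Q : Matrix (Fin 3) (Fin 3) K := Matrix.of ![σ ∘ u, σ ∘ v, crossProduct u v]
  have hQ : Q.det ≠ 0 := by
    have : Q.det = (u ⬝ᵥ (σ ∘ u)) * (v ⬝ᵥ (σ ∘ v)) - (u ⬝ᵥ (σ ∘ v)) * (v ⬝ᵥ (σ ∘ u)) := by
      simp [Q, Matrix.det_fin_three, cross_apply, dotProduct, Fin.sum_univ_three]
      ring
    rwa [this]
  have h4 : Q *ᵥ (x *ᵥ z - z) = 0 := by
    ext i
    fin_cases i
    · change (σ ∘ u) ⬝ᵥ (x *ᵥ z - z) = 0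
      rw [dotProduct_comm, sub_dotProduct, h1, hzu, sub_self]
    · change (σ ∘ v) ⬝ᵥ (x *ᵥ z - z) = 0
      rw [dotProduct_comm, sub_dotProduct, h2, hzv, sub_self]
    · change (crossProduct u v) ⬝ᵥ (x *ᵥ z - z) = 0
      generalize x *ᵥ z = y at h3
      simp only [P, Matrix.det_fin_three] at h3
      simp [cross_apply, dotProduct, Fin.sum_univ_three] at h3 ⊢
      linear_combination h3
  have h5 : x *ᵥ z = z := sub_eq_zero.1 (Matrix.eq_zero_of_mulVec_eq_zero hQ h4)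
  rw [h5] at hPx
  have hPu : IsUnit P.det := by rw [hP]; exact h.isUnit
  have h6 : xᵀ = 1 := by
    have : P⁻¹ * (P * xᵀ) = P⁻¹ * P := by rw [hPx]
    rwa [← Matrix.mul_assoc, Matrix.nonsing_inv_mul _ hPu, Matrix.one_mul] at this
  rw [← Matrix.transpose_transpose x, h6, Matrix.transpose_one]

theorem isTIp_SU3 {p : ℕ} [Fact p.Prime] {K : Type*} [Field K] [Finite K] [CharP K p] (n : ℕ)
    (hK : ∀ x : K, (x ^ p ^ n) ^ p ^ n = x) : IsTIp p (Cfsg.SU 3 K (p ^ n)) := by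
  let σ : K →+* K := iterateFrobenius K p n
  have hσ : ∀ x, σ (σ x) = x := hK
  let ρ : Cfsg.SU 3 K (p ^ n) →* Matrix (Fin 3) (Fin 3) K := (Cfsg.slToMat 3 K).comp (Subgroup.subtype _)
  have hρ : ∀ (g : Cfsg.SU 3 K (p ^ n)) (a b : Fin 3 → K), (ρ g *ᵥ a) ⬝ᵥ (σ ∘ (ρ g *ᵥ b)) = a ⬝ᵥ (σ ∘ b) :=
    fun g a b => g.2 a b
  have hdet : ∀ g : Cfsg.SU 3 K (p ^ n), (ρ g).det = 1 := fun g => g.1.2
  have hinj : ∀ g : Cfsg.SU 3 K (p ^ n), ρ g = 1 → g = 1 := fun g h => Subtype.ext (Subtype.ext h)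
  have hsymm : ∀ a b : Fin 3 → K, b ⬝ᵥ (σ ∘ a) = σ (a ⬝ᵥ (σ ∘ b)) := by
    intro a b
    simp [dotProduct, hσ, mul_comm]
  let f : (Fin 3 → K) → (Fin 3 → K) →ₗ[K] K := fun u =>
    { toFun := fun w => w ⬝ᵥ (σ ∘ u)
      map_add' := fun a b => add_dotProduct _ _ _
      map_smul' := fun a b => smul_dotProduct _ _ _ }
  -- a nontrivial `p`-subgroup fixes a nonzero isotropic vector
  have hiso : ∀ A : Subgroup (Cfsg.SU 3 K (p ^ n)), IsPGroup p A → A ≠ ⊥ →
      ∃ u : Fin 3 → K, u ≠ 0 ∧ u ⬝ᵥ (σ ∘ u) = 0 ∧ ∀ a ∈ A, ρ a *ᵥ u = u := by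
    intro A hA hA1
    obtain ⟨u, -, hu0, hu⟩ := exists_fixed_vector hA (ρ.comp A.subtype) ⊤ (fun _ _ _ => trivial)
      ![1, 0, 0] trivial (by simp)
    by_cases h1 : u ⬝ᵥ (σ ∘ u) = 0
    · exact ⟨u, hu0, h1, fun a ha => hu ⟨a, ha⟩⟩
    obtain ⟨w, hw, hw0⟩ : ∃ w ∈ LinearMap.ker (f u), w ≠ 0 := by
      rw [← Submodule.ne_bot_iff]
      exact LinearMap.ker_ne_bot_of_finrank_lt (by simp)
    obtain ⟨v, hvu, hv0, hv⟩ := exists_fixed_vector hA (ρ.comp A.subtype) (LinearMap.ker (f u)) (fun a v hv => by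
      have h2 : ρ a *ᵥ u = u := hu a
      have h3 := hρ a v u
      rw [h2] at h3
      exact h3.trans hv) w hw hw0
    by_cases h2 : v ⬝ᵥ (σ ∘ v) = 0
    · exact ⟨v, hv0, h2, fun a ha => hv ⟨a, ha⟩⟩
    exfalso
    apply hA1
    rw [eq_bot_iff]
    intro a ha
    have h3 : v ⬝ᵥ (σ ∘ u) = 0 := hvu
    exact hinj a (su3_eq_one_of_fixes σ (ρ a) (hdet a) (hρ a) u v (hu ⟨a, ha⟩) (hv ⟨a, ha⟩)
      (by rw [h3, mul_zero, sub_zero]; exact mul_ne_zero h1 h2))
  intro A B hA hB hAB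
  obtain ⟨u, hu0, hu1, hu⟩ := hiso A hA (fun h => hAB (by simp [h]))
  obtain ⟨v, hv0, hv1, hv⟩ := hiso B hB (fun h => hAB (by simp [h]))
  obtain ⟨⟨x, hxA, hxB⟩, hx⟩ := (Subgroup.ne_bot_iff_exists_ne_one).1 hAB
  have huv : u ⬝ᵥ (σ ∘ v) = 0 := by
    by_contra h
    refine hx (Subtype.ext (hinj x (su3_eq_one_of_fixes σ (ρ x) (hdet x) (hρ x) u v (hu x hxA) (hv x hxB) ?_)))
    rw [hu1, zero_mul, zero_sub, neg_ne_zero, hsymm u v]
    exact mul_ne_zero h (by simpa using h)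
  have hvu : v ⬝ᵥ (σ ∘ u) = 0 := by rw [hsymm, huv, map_zero]
  have hpar : ∃ c : K, u = c • v := by
    by_contra hno
    have hli : LinearIndependent K ![v, u] := by
      rw [LinearIndependent.pair_iff' hv0]
      intro c hc
      exact hno ⟨c, hc.symm⟩
    have hc : crossProduct v u ≠ 0 := crossProduct_ne_zero_iff_linearIndependent.2 hli
    -- `σ u` and `σ v` are both orthogonal to `u` and `v`, hence parallel to `v × u`
    have e1 : crossProduct (σ ∘ u) (crossProduct v u) = 0 := by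
      rw [cross_cross_eq_smul_sub_smul', dotProduct_comm (σ ∘ u) u, hu1, hvu]; simp
    have e2 : crossProduct (σ ∘ v) (crossProduct v u) = 0 := by
      rw [cross_cross_eq_smul_sub_smul', dotProduct_comm (σ ∘ v) u, huv, hv1]; simp
    have par : ∀ y : Fin 3 → K, crossProduct y (crossProduct v u) = 0 → ∃ c : K, c • crossProduct v u = y := by
      intro y hy
      by_contra hn
      have : LinearIndependent K ![crossProduct v u, y] := by
        rw [LinearIndependent.pair_iff' hc]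
        intro c hc'
        exact hn ⟨c, hc'⟩
      apply crossProduct_ne_zero_iff_linearIndependent.2 this
      rw [← cross_anticomm, hy, neg_zero]
    obtain ⟨a, ha⟩ := par _ e1
    obtain ⟨b, hb⟩ := par _ e2
    have hb0 : b ≠ 0 := by
      rintro rfl
      apply hv0
      ext i
      have := congrFun hb i
      simpa using this.symm
    apply hno
    refine ⟨σ (a / b), ?_⟩
    ext i
    have h1 := congrFun ha i
    have h2 := congrFun hb i
    simp only [Pi.smul_apply, smul_eq_mul, Function.comp] at h1 h2 ⊢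
    rw [← hσ (u i), ← hσ (v i), ← h1, ← h2, ← map_mul]
    congr 1
    field_simp
  obtain ⟨c, hc⟩ := hpar
  let St : Subgroup (Cfsg.SU 3 K (p ^ n)) := (MulAction.stabilizer _ u).comap (Subgroup.subtype _)
  have hSt : IsPGroup p St := by
    refine isPGroup_of_forall_prime fun r g hr hg => ?_
    by_contra hrp
    have hpr : ¬ p ∣ r := fun h => hrp ((Nat.prime_dvd_prime_iff_eq Fact.out hr).1 h).symm
    have hgu : ρ g *ᵥ u = u := g.2
    have hgr : ρ g ^ r = 1 := by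
      have : g ^ r = 1 := by rw [← hg]; exact pow_orderOf_eq_one g
      rw [← map_pow, ← Subgroup.coe_pow, this]; simp
    have hf : ∀ w, f u (ρ g *ᵥ w) = f u w := by
      intro w
      have := hρ g w u
      rwa [hgu] at this
    obtain ⟨z, hz⟩ : ∃ z, f u z ≠ 0 := by
      obtain ⟨i, hi⟩ := Function.ne_iff.1 hu0
      exact ⟨Pi.single i 1, by simpa [f] using hi⟩
    obtain ⟨w, hw, hw'⟩ := exists_fixed_of_coprime (ρ g) r hpr hgr (f u) hf z
    have h0 : w ⬝ᵥ (σ ∘ u) ≠ 0 := by rw [← hw'] at hz; exact hz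
    have h1 := su3_eq_one_of_fixes σ (ρ g) (hdet g) (hρ g) u w hgu hw (by
      rw [hu1, zero_mul, zero_sub, neg_ne_zero, hsymm w u]
      exact mul_ne_zero (by simpa using h0) h0)
    have h2 : g = 1 := Subtype.ext (hinj g h1)
    rw [h2, orderOf_one] at hg
    exact hr.one_lt.ne hg
  refine hSt.to_le (sup_le (fun a ha => hu a ha) (fun b hb => ?_))
  change ρ b *ᵥ u = u
  rw [hc, Matrix.mulVec_smul, hv b hb]

end CfsgLib.QdFree
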